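import Mathlib
import Cfsg.Agent.Lib.Helper73.SY.Defs

set_option autoImplicit false

/-!
# Project SY (S2221, coordinator helper73): package [M5] `lemDecFour`

Without tail and with one big orbit of 4 points, the even part of `Q` is a four-group.
The orbit is identified with `Fin 4` and the facts about `Perm (Fin 4)` are decided.
-/

namespace Cfsg.Agent.Lib.Helper37.SY

open Equiv Cfsg.Agent.Lib.Helper73.SY

set_option maxRecDepth 100000 in
theorem fin4_even : ∀ σ : Perm (Fin 4), σ ^ 8 = 1 → Perm.sign σ = 1 →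
    σ = 1 ∨ σ = swap 0 1 * swap 2 3 ∨ σ = swap 0 2 * swap 1 3 ∨ σ = swap 0 3 * swap 1 2 := by
  decide

set_option maxRecDepth 100000 in
theorem fin4_odd : ∀ c : Perm (Fin 4), c ^ 8 = 1 → c ^ 2 ≠ 1 → Perm.sign c = -1 := by
  decide

/-- The four-group in `Perm (Fin 4)`. -/
def fourGrp : Finset (Perm (Fin 4)) :=
  {1, swap 0 1 * swap 2 3, swap 0 2 * swap 1 3, swap 0 3 * swap 1 2}

set_option maxRecDepth 100000 in
theorem fin4_V : ∀ s1 ∈ fourGrp, ∀ s2 ∈ fourGrp, s1 ≠ 1 → s2 ≠ 1 → s1 ≠ s2 →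
    s1 * s2 = s2 * s1 ∧ s1 ^ 2 = 1 ∧ s2 ^ 2 = 1 ∧
      ∀ σ ∈ fourGrp, σ = 1 ∨ σ = s1 ∨ σ = s2 ∨ σ = s1 * s2 := by
  decide

theorem fin4_pow8 (σ : Perm (Fin 4)) (k : ℕ) (h : σ ^ (2 ^ k) = 1) : σ ^ 8 = 1 := by
  have h1 : orderOf σ ∣ 2 ^ k := orderOf_dvd_of_pow_eq_one h
  have h2 : orderOf σ ∣ 24 := by
    have := orderOf_dvd_card (x := σ)
    rw [Fintype.card_perm, Fintype.card_fin] at this
    exact this
  obtain ⟨j, hj, hj'⟩ := (Nat.dvd_prime_pow Nat.prime_two).1 h1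
  have hj3 : j ≤ 3 := by
    by_contra hcon
    have hcon' : 4 ≤ j := by omega
    have : (2 : ℕ) ^ 4 ∣ 24 := (pow_dvd_pow 2 hcon').trans (hj' ▸ h2)
    norm_num at this
  have h3 : orderOf σ ∣ 8 := by
    rw [hj']
    exact pow_dvd_pow 2 hj3
  exact orderOf_dvd_iff_pow_eq_one.1 h3

theorem fin4_core (Q' : Subgroup (Perm (Fin 4))) (h8 : ∀ σ ∈ Q', σ ^ 8 = 1)
    (c τ : Perm (Fin 4)) (hc : c ∈ Q') (hc2 : c ^ 2 ≠ 1) (hτ : τ ∈ Q') (hτ2 : τ ^ 2 = 1)
    (hτs : Perm.sign τ = -1) :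
    ∃ s1 ∈ Q', ∃ s2 ∈ Q', Perm.sign s1 = 1 ∧ Perm.sign s2 = 1 ∧ s1 ≠ 1 ∧ s2 ≠ 1 ∧ s1 ≠ s2 ∧
      s1 * s2 = s2 * s1 ∧ s1 ^ 2 = 1 ∧ s2 ^ 2 = 1 ∧
      ∀ σ ∈ Q', Perm.sign σ = 1 → σ = 1 ∨ σ = s1 ∨ σ = s2 ∨ σ = s1 * s2 := by
  have hcs : Perm.sign c = -1 := fin4_odd c (h8 c hc) hc2
  have hs1Q : c ^ 2 ∈ Q' := Q'.pow_mem hc 2
  have hs2Q : τ * c ∈ Q' := Q'.mul_mem hτ hc
  have hs1s : Perm.sign (c ^ 2) = 1 := by rw [map_pow, hcs]; norm_num
  have hs2s : Perm.sign (τ * c) = 1 := by rw [map_mul, hτs, hcs]; norm_num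
  have hmemV : ∀ σ ∈ Q', Perm.sign σ = 1 → σ ∈ fourGrp := by
    intro σ hσ hs
    have := fin4_even σ (h8 σ hσ) hs
    simp only [fourGrp, Finset.mem_insert, Finset.mem_singleton]
    exact this
  have hs2ne : τ * c ≠ 1 := by
    intro h
    apply hc2
    have h1 : c = τ⁻¹ := eq_inv_of_mul_eq_one_right h
    rw [h1, inv_pow, hτ2, inv_one]
  have hne : c ^ 2 ≠ τ * c := by
    intro h
    apply hc2
    have h1 : c = τ := by
      rw [pow_two] at h
      exact mul_right_cancel h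
    rw [h1, hτ2]
  obtain ⟨h1, h2, h3, h4⟩ := fin4_V (c ^ 2) (hmemV _ hs1Q hs1s) (τ * c) (hmemV _ hs2Q hs2s)
    hc2 hs2ne hne
  exact ⟨c ^ 2, hs1Q, τ * c, hs2Q, hs1s, hs2s, hc2, hs2ne, hne, h1, h2, h3,
    fun σ hσ hs => h4 σ (hmemV σ hσ hs)⟩

theorem mem_zpowers_sq {G : Type*} [Group G] {g x : G} (hg : g ^ 2 = 1)
    (hx : x ∈ Subgroup.zpowers g) : x = 1 ∨ x = g := by
  obtain ⟨k, hk⟩ := Subgroup.mem_zpowers_iff.1 hx
  have h := Int.emod_two_eq_zero_or_one k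
  have hg' : g ^ (2 : ℤ) = 1 := by exact_mod_cast hg
  have hk' : g ^ k = g ^ (k % 2) := by
    conv_lhs => rw [← Int.emod_add_mul_ediv k 2]
    rw [zpow_add, zpow_mul, hg', one_zpow, mul_one]
  rcases h with h | h
  · left; rw [← hk, hk', h, zpow_zero]
  · right; rw [← hk, hk', h, zpow_one]

theorem lemDecFour : LemDecFour := by
  intro α _ _ Q 𝒪 T O hS _ hT h𝒪 hcard
  obtain ⟨hQ2, -, -, hfix, hpres, -, hO, -⟩ := hS
  subst hT h𝒪
  obtain ⟨-, ⟨c, hcQ, hcfull⟩, a, haO, b, hbO, hab, hswQ⟩ := hO O (Finset.mem_singleton_self O)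
  have hfix' : ∀ q ∈ Q, ∀ x, x ∉ O → q x = x := by
    intro q hq x hx
    refine hfix q hq x (Finset.notMem_empty x) ?_
    intro O' hO'
    rw [Finset.mem_singleton] at hO'
    subst hO'
    exact hx
  have hpres' : ∀ q ∈ Q, ∀ x ∈ O, q x ∈ O :=
    fun q hq x hx => hpres q hq O (Finset.mem_singleton_self O) x hx
  let e : {x // x ∈ O} ≃ Fin 4 := O.equivFinOfCardEq hcard
  let ψ : Perm (Fin 4) →* Perm α :=
    (Perm.ofSubtype (p := fun x => x ∈ O)).comp e.symm.permCongrHom.toMonoidHom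
  have hψinj : Function.Injective ψ := by
    intro σ ρ h
    have h1 := Perm.ofSubtype_injective h
    exact e.symm.permCongrHom.injective h1
  have hψsign : ∀ σ, Perm.sign (ψ σ) = Perm.sign σ := by
    intro σ
    show Perm.sign (Perm.ofSubtype (e.symm.permCongr σ)) = Perm.sign σ
    rw [Perm.sign_ofSubtype, Perm.sign_permCongr]
  have hψsurj : ∀ q ∈ Q, ∃ σ, ψ σ = q := by
    intro q hq
    have h1 : ∀ x, q x ∈ O ↔ x ∈ O := by
      intro x
      constructor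
      · intro hx
        by_contra hx'
        rw [hfix' q hq x hx'] at hx
        exact hx' hx
      · exact hpres' q hq x
    have h2 : ∀ x, q x ≠ x → x ∈ O := by
      intro x hx
      by_contra hx'
      exact hx (hfix' q hq x hx')
    refine ⟨e.symm.permCongrHom.symm (q.subtypePerm h1), ?_⟩
    show Perm.ofSubtype (e.symm.permCongrHom (e.symm.permCongrHom.symm (q.subtypePerm h1))) = q
    rw [MulEquiv.apply_symm_apply]
    exact Perm.ofSubtype_subtypePerm h1 h2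
  have h8 : ∀ σ ∈ Q.comap ψ, σ ^ 8 = 1 := by
    intro σ hσ
    obtain ⟨k, hk⟩ := hQ2 ⟨ψ σ, hσ⟩
    have hk' : (ψ σ) ^ (2 ^ k) = 1 := by
      have := congrArg Subtype.val hk
      simpa using this
    apply fin4_pow8 σ k
    apply hψinj
    rw [map_pow, hk', map_one]
  obtain ⟨c', hc'⟩ := hψsurj c hcQ
  obtain ⟨τ', hτ'⟩ := hψsurj (swap a b) hswQ
  have hc'2 : c' ^ 2 ≠ 1 := by
    intro h
    have hc2 : c ^ 2 = 1 := by rw [← hc', ← map_pow, h, map_one]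
    have hsub : O ⊆ {a, c a} := by
      intro y hy
      obtain ⟨k, hk⟩ := hcfull.2 a haO y hy
      rw [pow_eq_pow_mod k hc2] at hk
      rcases Nat.mod_two_eq_zero_or_one k with h' | h'
      · rw [h'] at hk
        simp at hk
        simp [← hk]
      · rw [h'] at hk
        simp at hk
        simp [← hk]
    have := Finset.card_le_card hsub
    have h2 : ({a, c a} : Finset α).card ≤ 2 := Finset.card_le_two
    omega
  have hτ'2 : τ' ^ 2 = 1 := by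
    apply hψinj
    rw [map_pow, hτ', map_one, pow_two, Equiv.swap_mul_self]
  have hτ's : Perm.sign τ' = -1 := by
    rw [← hψsign, hτ', Perm.sign_swap hab]
  obtain ⟨s1, hs1Q, s2, hs2Q, hs1s, hs2s, hs1ne, hs2ne, hs12, hcomm, hs1sq, hs2sq, hall⟩ :=
    fin4_core (Q.comap ψ) h8 c' τ' (by rw [Subgroup.mem_comap, hc']; exact hcQ) hc'2
      (by rw [Subgroup.mem_comap, hτ']; exact hswQ) hτ'2 hτ's
  have hψ1 : ψ s1 ≠ 1 := fun h => hs1ne (hψinj (h.trans (map_one ψ).symm))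
  have hψ2 : ψ s2 ≠ 1 := fun h => hs2ne (hψinj (h.trans (map_one ψ).symm))
  have hψs1sq : (ψ s1) ^ 2 = 1 := by rw [← map_pow, hs1sq, map_one]
  have hψs2sq : (ψ s2) ^ 2 = 1 := by rw [← map_pow, hs2sq, map_one]
  have hS1 : Subgroup.zpowers (ψ s1) ≤ Q ⊓ alternatingGroup α := by
    rw [Subgroup.zpowers_le]
    exact ⟨hs1Q, Perm.mem_alternatingGroup.2 (by rw [hψsign, hs1s])⟩
  have hS2 : Subgroup.zpowers (ψ s2) ≤ Q ⊓ alternatingGroup α := by
    rw [Subgroup.zpowers_le]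
    exact ⟨hs2Q, Perm.mem_alternatingGroup.2 (by rw [hψsign, hs2s])⟩
  refine ⟨Subgroup.zpowers (ψ s1), Subgroup.zpowers (ψ s2), ?_, ?_, hS1, hS2, ?_, ?_, ?_⟩
  · intro h
    have : ψ s1 ∈ (⊥ : Subgroup (Perm α)) := h ▸ Subgroup.mem_zpowers _
    exact hψ1 (Subgroup.mem_bot.1 this)
  · intro h
    have : ψ s2 ∈ (⊥ : Subgroup (Perm α)) := h ▸ Subgroup.mem_zpowers _
    exact hψ2 (Subgroup.mem_bot.1 this)
  · intro x hx y hy
    obtain ⟨i, rfl⟩ := Subgroup.mem_zpowers_iff.1 hx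
    obtain ⟨j, rfl⟩ := Subgroup.mem_zpowers_iff.1 hy
    have hc : Commute (ψ s1) (ψ s2) := by
      show ψ s1 * ψ s2 = ψ s2 * ψ s1
      rw [← map_mul, ← map_mul, hcomm]
    exact (hc.zpow_zpow i j).eq
  · rw [eq_bot_iff]
    rintro x ⟨hx1, hx2⟩
    rw [Subgroup.mem_bot]
    rcases mem_zpowers_sq hψs1sq hx1 with h | h
    · exact h
    · rcases mem_zpowers_sq hψs2sq hx2 with h' | h'
      · exact h'
      · exact absurd (hψinj (h.symm.trans h')) hs12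
  · apply le_antisymm (sup_le hS1 hS2)
    rintro q ⟨hqQ, hqA⟩
    obtain ⟨σ, rfl⟩ := hψsurj q hqQ
    have hσs : Perm.sign σ = 1 := by
      rw [← hψsign]; exact Perm.mem_alternatingGroup.1 hqA
    rcases hall σ hqQ hσs with h | h | h | h
    · subst h; rw [map_one]; exact Subgroup.one_mem _
    · subst h; exact Subgroup.mem_sup_left (Subgroup.mem_zpowers _)
    · subst h; exact Subgroup.mem_sup_right (Subgroup.mem_zpowers _)
    · subst h; rw [map_mul]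
      exact Subgroup.mul_mem_sup (Subgroup.mem_zpowers _) (Subgroup.mem_zpowers _)

end Cfsg.Agent.Lib.Helper37.SY
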