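import Mathlib
import Cfsg.Agent.Lib.Helper73.SY.Defs

set_option autoImplicit false

/-!
# Project SY (S2221, coordinator helper73): package [M2] `lemIndTail_of`

With a tail `T = {u, v}` and one big orbit `O`, `Q = W × ⟨τ⟩` with `W = part Q O`,
`τ = swap u v`; a central element of `Q ⊓ Alt` is `w` or `w τ` with `w` central in `W`, so it is
`1` or the unique central involution `z₀` of `W` ([ZW]); but a decomposable 2-group has two
distinct nontrivial central elements ([IND]).
-/

namespace Cfsg.Agent.Lib.Helper37.SY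

open Equiv Cfsg.Agent.Lib.Helper73.SY

theorem central_cancel {G : Type*} [Group G] (w x r s : G) (hrx : r * x = x * r)
    (hsw : s * w = w * s) (hsr : s * r = r * s)
    (h : (w * r) * (x * s) = (x * s) * (w * r)) : w * x = x * w := by
  have h1 : (w * r) * (x * s) = (w * x) * (r * s) := by
    calc (w * r) * (x * s) = w * (r * x) * s := by simp only [mul_assoc]
      _ = w * (x * r) * s := by rw [hrx]
      _ = (w * x) * (r * s) := by simp only [mul_assoc]
  have h2 : (x * s) * (w * r) = (x * w) * (r * s) := by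
    calc (x * s) * (w * r) = x * (s * w) * r := by simp only [mul_assoc]
      _ = x * (w * s) * r := by rw [hsw]
      _ = x * w * (s * r) := by simp only [mul_assoc]
      _ = (x * w) * (r * s) := by rw [hsr]
  exact mul_right_cancel (h1.symm.trans (h.trans h2))

theorem lemIndTail_of (hZ : LemZW) (hI : LemInd) : LemIndTail := by
  intro α _ _ Q 𝒪 T hS hT h𝒪 hDec
  obtain ⟨O, rfl⟩ := Finset.card_eq_one.1 h𝒪
  obtain ⟨hQ2, -, hdisj, hfix, hpres, hrestr, hO, hTail⟩ := hS
  obtain ⟨hO4, ⟨c, hcQ, hcfull⟩, a, haO, b, hbO, hab, hswQ⟩ :=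
    hO O (Finset.mem_singleton_self O)
  rcases hTail with hT' | ⟨u, v, huv, rfl, hτQ⟩
  · exact hT hT'
  have hdisj' : Disjoint O {u, v} := hdisj O (Finset.mem_singleton_self O)
  have huO : u ∉ O := fun h => (Finset.disjoint_left.1 hdisj' h) (by simp)
  have hvO : v ∉ O := fun h => (Finset.disjoint_left.1 hdisj' h) (by simp)
  have hfix' : ∀ q ∈ Q, ∀ x, x ≠ u → x ≠ v → x ∉ O → q x = x := by
    intro q hq x hxu hxv hxO
    refine hfix q hq x (by simp [hxu, hxv]) ?_
    intro O' hO'
    rw [Finset.mem_singleton] at hO'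
    subst hO'
    exact hxO
  have hpres' : ∀ q ∈ Q, ∀ x ∈ O, q x ∈ O :=
    fun q hq x hx => hpres q hq O (Finset.mem_singleton_self O) x hx
  have hrestr' : ∀ q ∈ Q, ∃ q' ∈ Q, (∀ x ∈ O, q' x = q x) ∧ ∀ x, x ∉ O → q' x = x :=
    fun q hq => hrestr q hq O (Finset.mem_singleton_self O)
  have hW : ∀ w, w ∈ part Q O ↔ w ∈ Q ∧ ∀ x, x ∉ O → w x = x := by
    intro w
    unfold part
    rw [Subgroup.mem_inf, mem_fixingSubgroup_iff]
    simp
  -- `τ` commutes with `W`
  have hτW : ∀ w ∈ part Q O, swap u v * w = w * swap u v := by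
    intro w hw
    have h1 := ((hW w).1 hw).2
    have h2 := Equiv.mul_swap_eq_swap_mul w u v
    rw [h1 u huO, h1 v hvO] at h2
    exact h2.symm
  have hτs : Perm.sign (swap u v) = -1 := Perm.sign_swap huv
  -- decomposition of `Q`
  have hdecomp : ∀ q ∈ Q, ∃ w ∈ part Q O, q = w ∨ q = w * swap u v := by
    intro q hq
    obtain ⟨q', hq'Q, hq'O, hq'out⟩ := hrestr' q hq
    have hq'W : q' ∈ part Q O := (hW q').2 ⟨hq'Q, hq'out⟩
    refine ⟨q', hq'W, ?_⟩
    have hrQ : q'⁻¹ * q ∈ Q := Q.mul_mem (Q.inv_mem hq'Q) hq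
    have hrO : ∀ x ∈ O, (q'⁻¹ * q) x = x := by
      intro x hx
      rw [Perm.mul_apply, ← hq'O x hx]
      simp
    have hrout : ∀ x, x ≠ u → x ≠ v → x ∉ O → (q'⁻¹ * q) x = x := hfix' _ hrQ
    have hrT : ∀ x, x ∉ O → ((q'⁻¹ * q) x = u ∨ (q'⁻¹ * q) x = v) → (x = u ∨ x = v) := by
      intro x hxO hx
      by_contra hcon
      push Not at hcon
      have := hrout x hcon.1 hcon.2 hxO
      rw [this] at hx
      exact absurd hx (by push Not; exact hcon)
    have hrTu : ∀ x, (x = u ∨ x = v) → ((q'⁻¹ * q) x = u ∨ (q'⁻¹ * q) x = v) := by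
      intro x hx
      have hxO : x ∉ O := by rcases hx with rfl | rfl <;> assumption
      by_contra hcon
      push Not at hcon
      have hyO : (q'⁻¹ * q) x ∉ O := by
        intro hy
        have h1 := hrO _ hy
        have h2 := (q'⁻¹ * q).injective h1
        rw [h2] at hy
        exact hxO hy
      have h1 := hrout _ hcon.1 hcon.2 hyO
      have h2 := (q'⁻¹ * q).injective h1
      rw [h2] at hcon
      rcases hx with rfl | rfl
      · exact hcon.1 rfl
      · exact hcon.2 rfl
    rcases hrTu u (Or.inl rfl) with hu | hu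
    · -- r u = u, so r v = v and r = 1
      have hv : (q'⁻¹ * q) v = v := by
        rcases hrTu v (Or.inr rfl) with h | h
        · exact absurd ((q'⁻¹ * q).injective (h.trans hu.symm)) (Ne.symm huv)
        · exact h
      left
      have hr1 : q'⁻¹ * q = 1 := by
        ext x
        rw [Perm.one_apply]
        by_cases hxu : x = u
        · rw [hxu, hu]
        by_cases hxv : x = v
        · rw [hxv, hv]
        by_cases hxO : x ∈ O
        · exact hrO x hxO
        · exact hrout x hxu hxv hxO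
      calc q = q' * (q'⁻¹ * q) := by group
        _ = q' := by rw [hr1, mul_one]
    · -- r u = v, so r v = u and r = swap u v
      have hv : (q'⁻¹ * q) v = u := by
        rcases hrTu v (Or.inr rfl) with h | h
        · exact h
        · exact absurd ((q'⁻¹ * q).injective (h.trans hu.symm)) (Ne.symm huv)
      right
      have hr1 : q'⁻¹ * q = swap u v := by
        ext x
        by_cases hxu : x = u
        · rw [hxu, hu, swap_apply_left]
        by_cases hxv : x = v
        · rw [hxv, hv, swap_apply_right]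
        rw [swap_apply_of_ne_of_ne hxu hxv]
        by_cases hxO : x ∈ O
        · exact hrO x hxO
        · exact hrout x hxu hxv hxO
      calc q = q' * (q'⁻¹ * q) := by group
        _ = q' * swap u v := by rw [hr1]
  -- [ZW] for `W`
  have hcW : c ∈ part Q O := (hW c).2 ⟨hcQ, hcfull.1⟩
  have hswW : swap a b ∈ part Q O := by
    refine (hW _).2 ⟨hswQ, ?_⟩
    intro x hx
    exact swap_apply_of_ne_of_ne (fun h => hx (h ▸ haO)) (fun h => hx (h ▸ hbO))
  obtain ⟨z₀, hz₀W, hz₀s, hz₀ne, hz₀c, hz₀u⟩ := hZ α (part Q O) O c a b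
    (hQ2.to_le inf_le_left) (fun w hw => ((hW w).1 hw).2) hcW hcfull hO4 haO hbO hab hswW
  -- [IND] for `P'`
  obtain ⟨z₁, hz₁P, z₂, hz₂P, hz₁ne, hz₂ne, hz12, hz₁c, hz₂c⟩ :=
    hI (Perm α) (Q ⊓ alternatingGroup α) (hQ2.to_le inf_le_left) hDec
  have key : ∀ z ∈ Q ⊓ alternatingGroup α,
      (∀ p ∈ Q ⊓ alternatingGroup α, z * p = p * z) → z = 1 ∨ z = z₀ := by
    intro z hz hzc
    obtain ⟨w, hwW, hzw⟩ := hdecomp z hz.1
    have hτw := hτW w hwW
    -- z = w * r with r ∈ {1, τ}
    obtain ⟨r, hr, hzr⟩ : ∃ r : Perm α, (r = 1 ∨ r = swap u v) ∧ z = w * r := by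
      rcases hzw with h | h
      · exact ⟨1, Or.inl rfl, by rw [mul_one]; exact h⟩
      · exact ⟨swap u v, Or.inr rfl, h⟩
    have hwc : ∀ x ∈ part Q O, w * x = x * w := by
      intro x hx
      have hτx := hτW x hx
      have hxQ : x ∈ Q := ((hW x).1 hx).1
      obtain ⟨s, hs, hxs⟩ : ∃ s : Perm α, (s = 1 ∨ s = swap u v) ∧
          x * s ∈ Q ⊓ alternatingGroup α := by
        rcases Int.units_eq_one_or (Perm.sign x) with h | h
        · exact ⟨1, Or.inl rfl, by rw [mul_one]; exact ⟨hxQ, Perm.mem_alternatingGroup.2 h⟩⟩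
        · refine ⟨swap u v, Or.inr rfl, Q.mul_mem hxQ hτQ, Perm.mem_alternatingGroup.2 ?_⟩
          rw [map_mul, h, hτs]; norm_num
      have h := hzc (x * s) hxs
      rw [hzr] at h
      refine central_cancel w x r s ?_ ?_ ?_ h
      · rcases hr with rfl | rfl
        · simp
        · exact hτx
      · rcases hs with rfl | rfl
        · simp
        · exact hτw
      · rcases hr with rfl | rfl <;> rcases hs with rfl | rfl <;> simp
    have hw01 := hz₀u w hwW hwc
    have hws : Perm.sign w = 1 := by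
      rcases hw01 with rfl | rfl
      · exact map_one _
      · exact hz₀s
    have hzs : Perm.sign z = 1 := Perm.mem_alternatingGroup.1 hz.2
    rcases hr with rfl | rfl
    · rw [mul_one] at hzr
      rw [hzr]; exact hw01
    · rw [hzr, map_mul, hws, hτs] at hzs
      exact absurd hzs (by decide)
  have h1 : z₁ = z₀ := (key z₁ hz₁P hz₁c).resolve_left hz₁ne
  have h2 : z₂ = z₀ := (key z₂ hz₂P hz₂c).resolve_left hz₂ne
  exact hz12 (h1.trans h2.symm)

end Cfsg.Agent.Lib.Helper37.SY
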